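-- copy of a landed module avoiding the name clash (`Comp.syl_inf`) between `SC2.D` and `Sig.S4D`
import Cfsg.Agent.HoltX.Lf

/-!
# Holt's theorem, local structure: supports and roots in the reduced case
-/

set_option linter.unusedSectionVars false
set_option autoImplicit false

namespace CF.Holt.LS
open MulAction Subgroup Cfsg CF.BG CF.Bender CF.ZD CF.Ab2 CF.Sig Equiv
open scoped Pointwise commutatorElement

universe u

theorem cj_FX {G A : Type*} [Group G] [MulAction G A] (g : G) (B : Set A) :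
    cj g (FX G B) = FX G (g • B) := by
  ext x
  rw [mem_cj, mem_fixingSubgroup_iff, mem_fixingSubgroup_iff]
  constructor
  · rintro h _ ⟨p, hp, rfl⟩
    have := h p hp
    rwa [mul_smul, mul_smul, inv_smul_eq_iff] at this
  · exact fun h p hp => conj_smul' (h _ ⟨p, hp, rfl⟩)

theorem Alo.cj {G A : Type*} [Group G] [Finite G] [MulAction G A] {L : Subgroup G} {Δ : Set A}
    (h : Alo L Δ) (g : G) : Alo (cj g L) (g • Δ) := by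
  classical
  intro _ _ τ hτ
  let e : Δ ≃ (g • Δ : Set A) := Equiv.Set.image (g • ·) Δ (MulAction.injective g)
  haveI := Fintype.ofEquiv _ e.symm
  obtain ⟨l, hl, k⟩ := h (e.symm.permCongr τ) (by rw [Perm.sign_permCongr, hτ])
  refine ⟨_, conj_mem_cj.2 hl, fun p => ?_⟩
  obtain ⟨p, rfl⟩ := e.surjective p
  have : (e (e.symm.permCongr τ p) : A) = τ (e p) := by simp
  rw [← this]
  exact conj_smul (k p) g

theorem decomp {G : Type*} [Group G] [Finite G] {M : Subgroup G} {g : G} (F : 𝐅 (⊤ : Subgroup G) = ⊥)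
    (h : ∀ L, Comp L ⊤ → ∃ l ∈ L, l ∈ M ∧ l⁻¹ * g ∈ 𝐂 L) : g ∈ M := by
  have key : ∀ s : Set (Subgroup G), s.Finite → ∃ m ∈ M, ∀ L, Comp L ⊤ →
      (L ∉ s → m ∈ 𝐂 L) ∧ (L ∈ s → m⁻¹ * g ∈ 𝐂 L) := fun s hs => by
    induction s, hs using Set.Finite.induction_on with
    | empty => exact ⟨1, one_mem _, fun L _ => ⟨fun _ => one_mem _, fun h => h.elim⟩⟩
    | @insert K s n _ ih =>
      obtain ⟨m, hm, k⟩ := ih
      by_cases c : Comp K ⊤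
      swap
      · exact ⟨m, hm, fun L hL => ⟨fun h => (k L hL).1 fun h' => h (.inr h'),
          fun h => (k L hL).2 (h.resolve_left fun e => c (e ▸ hL))⟩⟩
      obtain ⟨l, h1, h2, h3⟩ := h K c
      refine ⟨l * m, mul_mem h2 hm, fun L hL => ⟨fun h => mul_mem
        (c.cent_of_ne hL (fun e => h (.inl e.symm)) h1) ((k L hL).1 fun h' => h (.inr h')), ?_⟩⟩
      rintro (rfl | h)
      · rw [mul_inv_rev, mul_assoc]; exact mul_mem (inv_mem ((k L hL).1 n)) h3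
      · rw [(k K c).1 n l h1, mul_inv_rev, mul_assoc]
        exact mul_mem (inv_mem (c.cent_of_ne hL (fun e => n (e ▸ h)) h1)) ((k L hL).2 h)
  obtain ⟨m, hm, k⟩ := key _ Set.finite_univ
  have := le_F_of_cent (Y := zpowers (m⁻¹ * g)) le_top (by rw [F]; simp)
    (fun L hL => zpowers_le.2 ((k L hL).2 trivial)) (mem_zpowers _)
  rw [F, mem_bot, inv_mul_eq_one] at this
  exact this ▸ hm

variable {H X : Type u} [Group H] [MulAction H X] [Finite H] [Finite X] {L L' Q : Subgroup H}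
  {b d e g l t : H} {a x y : X} {σ τ : Set X} {B B' : Set (Set X)}

theorem fix_Dl (hg : g ∈ 𝐍 L) (hσ : σ ∈ Dl X L) (hx : x ∈ σ) (e : g • x = x) : g • σ = σ := by
  rw [Dl_eq hσ hx, fb_smul hg, e]

theorem smul_mem_of (e : g • σ = σ) (hx : x ∈ σ) : g • x ∈ σ := St_mem (mem_St.2 e) hx

theorem smul_psi (g : H) (B : Set (Set X)) : g • (Set.univ \ ⋃₀ B) = Set.univ \ ⋃₀ (g • B) := by
  ext x
  simp only [Set.mem_smul_set_iff_inv_smul_mem, Set.mem_diff, Set.mem_univ, true_and, Set.mem_sUnion]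
  refine not_congr ⟨fun ⟨σ, h1, h2⟩ => ⟨g • σ, by rwa [inv_smul_smul], ?_⟩, fun ⟨σ, h1, h2⟩ =>
    ⟨_, h1, Set.smul_mem_smul_set h2⟩⟩
  rwa [Set.mem_smul_set_iff_inv_smul_mem]

/-- supports of roots -/
def Sp (L : Subgroup H) (B : Set (Set X)) : Prop := Comp L ⊤ ∧
  ((Alo L (Dl X L) ∧ B ⊆ Dl X L ∧ B.ncard = 4) ∨ (¬ Alo L (Dl X L) ∧ ∃ δ ∈ Dl X L, B = Dl X L \ {δ}))

/-- the root with given support -/
def rt (L : Subgroup H) (B : Set (Set X)) : Root H X :=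
  ⟨Set.univ \ ⋃₀ B, FX H B, 𝛀 2 (L ⊓ FX H (Dl X L \ B))⟩

theorem rt_cj (g : H) (L : Subgroup H) (B : Set (Set X)) : (rt L B).cj g = rt (cj g L) (g • B) := by
  refine Root.ext (smul_psi g B) (cj_FX g B) ?_
  show cj g (𝛀 2 _) = 𝛀 2 _
  rw [cj_Om, cj_inf, cj_FX, Set.smul_set_sdiff, Dl_cj]

theorem Sp.cj (s : Sp L B) (g : H) : Sp (cj g L) (g • B) := by
  refine ⟨s.1.cj_of_norm (le_norm_self _ (mem_top g)), s.2.imp (fun ⟨h1, h2, h3⟩ => ?_)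
    fun ⟨h1, δ, h2, h3⟩ => ⟨fun k => h1 ?_, g • δ, ?_, ?_⟩⟩
  · rw [← Dl_cj]; exact ⟨h1.cj g, Set.smul_set_mono h2, by rwa [Set.ncard_smul_set]⟩
  · have : Alo (BG.cj g⁻¹ (BG.cj g L)) (g⁻¹ • Dl X (BG.cj g L)) := Alo.cj k g⁻¹
    rwa [Dl_cj, cj_inv_cj] at this
  · rw [← Dl_cj]; exact Set.smul_mem_smul_set h2
  · rw [h3, Set.smul_set_sdiff, Dl_cj, Set.smul_set_singleton]

theorem Sp.sub (s : Sp L B) : B ⊆ Dl X L :=
  s.2.elim (fun h => h.2.1) fun ⟨_, _, _, e⟩ => e ▸ Set.diff_subset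

theorem Sp.mem_psi (s : Sp L B) : x ∈ (rt L B).Ψ ↔ fb L x ∉ B :=
  ⟨fun h k => h.2 ⟨_, k, fb_self L x⟩, fun h => ⟨trivial, fun ⟨_, h1, h2⟩ => h (Dl_eq (s.sub h1) h2 ▸ h1)⟩⟩

theorem st_psi (h : g ∈ St H B) : g ∈ (rt L B).N ⊤ := ⟨trivial, by
  show g • (Set.univ \ ⋃₀ B) = _
  rw [smul_psi, mem_St.1 h]; rfl⟩

theorem FX_st (h : g ∈ FX H B) : g ∈ St H B :=
  mem_St_of (Set.toFinite _) fun σ hσ => by rwa [mem_FX.1 h σ hσ]

theorem T_st (h : g ∈ L ⊓ FX H (Dl X L \ B)) (sub : B ⊆ Dl X L) : g ∈ St H B :=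
  mem_St_of (Set.toFinite _) fun σ hσ => by_contra fun k => k (by
    have := mem_FX.1 h.2 _ ⟨St_mem (Dl_st (le_norm_self _ h.1)) (sub hσ), k⟩
    rwa [smul_left_cancel g this])

/-- the reduced case -/
structure Sys (H X : Type u) [Group H] [MulAction H X] : Prop extends Red H X where
  cp : ∀ ⦃L : Subgroup H⦄, Comp L ⊤ → Cp X L

variable (S : Sys H X)
include S

theorem Sys.fix2 (k : Comp L ⊤) (k' : Comp L' ⊤) (hσ : σ ∈ Dl X L) (hτ : τ ∈ Dl X L')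
    (ne : (σ ∩ τ).Nonempty) (ht : E2 t) (e : t • σ = σ) (e' : t • τ = τ) : ∃ x ∈ σ ∩ τ, t • x = x := by
  obtain ⟨x, hx⟩ := ne
  obtain ⟨d, hd, fx⟩ := up_ex S.loc (Set.mem_univ x)
  exact fix_of_odd ht (Set.toFinite _) (fun y hy => ⟨smul_mem_of e hy.1, smul_mem_of e' hy.2⟩)
    (up_odd hd (Set.subset_univ _) (fun y hy => ⟨smul_mem_of (fix_Dl ((S.cp k).nrm hd) hσ hx.1 fx) hy.1,
      smul_mem_of (fix_Dl ((S.cp k').nrm hd) hτ hx.2 fx) hy.2⟩) hx fx)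

theorem Sys.fix1 (k : Comp L ⊤) (hσ : σ ∈ Dl X L) (ht : E2 t) (e : t • σ = σ) : ∃ x ∈ σ, t • x = x :=
  (S.fix2 k k hσ hσ (by rw [Set.inter_self]; exact Dl_ne hσ) ht e e).imp fun _ h => ⟨h.1.1, h.2⟩

theorem Sys.other (k : Comp L ⊤) (k' : Comp L' ⊤) (n : L ≠ L') (hl : l ∈ L) : l ∈ FX H (Dl X L') :=
  cent_Dl (k.cent_of_ne k' n hl)

theorem Sys.meet (k : Comp L ⊤) (k' : Comp L' ⊤) (n : L ≠ L') (hσ : σ ∈ Dl X L) (hτ : τ ∈ Dl X L') :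
    (σ ∩ τ).Nonempty := by
  obtain ⟨x, hx⟩ := Dl_ne hτ
  obtain ⟨l, hl, rfl⟩ := (S.cp k).tr (fb_mem L x) hσ
  exact ⟨l • x, Set.smul_mem_smul_set (fb_self L x), smul_mem_of (mem_FX.1 (S.other k k' n hl) τ hτ) hx⟩

theorem Sys.triv (h : ∀ L, Comp L ⊤ → g ∈ 𝐍 L ∧ g ∈ FX H (Dl X L)) : g = 1 :=
  mem_bot.1 (decomp S.F fun L k => ⟨1, one_mem _, one_mem _, by
    rw [inv_one, one_mul]; exact (S.cp k).cent (h L k).1 (h L k).2⟩)

theorem Sys.uq (k : Comp L ⊤) (hd : UP ⊤ (Set.univ : Set X) d) (fa : d • a = a) (hσ : σ ∈ Dl X L) :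
    d • σ = σ ↔ σ = fb L a := by
  refine ⟨fun e => ?_, fun e => fix_Dl ((S.cp k).nrm hd) hσ (e ▸ fb_self L a) fa⟩
  obtain ⟨x, hx, fx⟩ := S.fix1 k hσ (e2_sq hd.iv.sq) e
  exact Dl_eq hσ (hd.uniq trivial trivial fx fa ▸ hx)

theorem Sys.inner (k : Comp L ⊤) (hd : UP ⊤ (Set.univ : Set X) d) (he : UP ⊤ (Set.univ : Set X) e) :
    ∃ l ∈ L, l⁻¹ * (d * e) ∈ FX H (Dl X L) := by
  have c := S.cp k
  obtain ⟨a, -, fa⟩ := hd.ex
  obtain ⟨b, -, fb'⟩ := he.ex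
  by_cases h : Alo L (Dl X L)
  · exact h.even c.fin (Dl_st (c.nrm hd)) (Dl_st (c.nrm he)) hd.iv.sq he.iv.sq (fb_mem L a) (fb_mem L b)
      (fun _ => S.uq k hd fa) fun _ => S.uq k he fb'
  have key : ∀ {d : H} {a : X}, UP ⊤ (Set.univ : Set X) d → d • a = a →
      ∃ l ∈ L, l⁻¹ * d ∈ FX H (Dl X L) := fun {d a} hd fa => by
    obtain ⟨Q, D, w, z, n⟩ := (c.se h).bn c.toAct0 (fb_mem L a)
    obtain ⟨v, hv, e⟩ := n.inner hd.iv.sq (c.nrm hd) (Dl_st (c.nrm hd)) ((S.uq k hd fa (fb_mem L a)).2 rfl)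
      fun _ hσ => (S.uq k hd fa hσ).1
    exact ⟨v, n.r.syl.le (Om_le _ _ hv), e⟩
  obtain ⟨v, hv, e1⟩ := key hd fa
  obtain ⟨v', hv', e2⟩ := key he fb'
  exact ⟨v * v', mul_mem hv hv', mem_of_eq (mul_mem (conj_mem_of_norm' (norm_FX fun p hp =>
    St_mem (c.st hv') hp) e1) e2) (by group)⟩

theorem Sys.inj (h : ∀ L : Subgroup H, Comp L ⊤ → fb L x = fb L y) : x = y := by_contra fun n => by
  obtain ⟨_, ⟨d, hd, e, he, -, -, rfl⟩, fx, fy⟩ := S.sep x y n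
  refine fy (decomp (M := stabilizer H y) S.F fun L k => ?_)
  obtain ⟨l, hl, m⟩ := S.inner k hd he
  have nm := mul_mem ((S.cp k).nrm hd) ((S.cp k).nrm he)
  refine ⟨l, hl, (S.cp k).ptw hl ?_, (S.cp k).cent (mul_mem (inv_mem (le_norm_self _ hl)) nm) m⟩
  have := mem_FX.1 m _ (fb_mem L x)
  rw [mul_smul, fb_smul nm, fx, inv_smul_eq_iff, h L k] at this
  exact this.symm

theorem Sys.ex (s : Sp L B) : ∃ σ ∈ Dl X L, σ ∉ B := by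
  rcases s.2 with ⟨-, -, h⟩ | ⟨-, δ, h, rfl⟩
  · exact Set.exists_mem_notMem_of_ncard_lt_ncard (by have := (S.cp s.1).five; omega)
  · exact ⟨δ, h, fun k => k.2 rfl⟩

theorem Sys.ne (s : Sp L B) : B.Nonempty := by
  have := (S.cp s.1).five
  rcases s.2 with ⟨-, -, h⟩ | ⟨-, δ, h, rfl⟩
  · exact Set.nonempty_of_ncard_ne_zero (by omega)
  · have := Set.ncard_diff_singleton_add_one h
    exact Set.nonempty_of_ncard_ne_zero (by omega)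

theorem Sys.rd (s : Sp L B) : ∃ Q b, RD L (Dl X L) B Q b := by
  rcases s.2 with ⟨h, h1, h2⟩ | ⟨h, δ, h1, rfl⟩
  · obtain ⟨Q, b, r, -⟩ := h.rd (S.cp s.1).toAct0 h1 h2
    exact ⟨Q, b, r⟩
  · obtain ⟨Q, D, w, z, n⟩ := ((S.cp s.1).se h).bn (S.cp s.1).toAct0 h1
    exact ⟨Q, z, n.rd⟩

theorem Sys.uniq (s : Sp L B) (s' : Sp L' B') (h : (rt L B).Ψ ⊆ (rt L' B').Ψ) : L = L' ∧ B = B' := by
  obtain rfl : L = L' := by_contra fun n => by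
    obtain ⟨σ, h1, h2⟩ := S.ex s
    obtain ⟨τ, h3⟩ := S.ne s'
    obtain ⟨x, k1, k2⟩ := S.meet s.1 s'.1 n h1 (s'.sub h3)
    exact (h (s.mem_psi.2 (Dl_eq h1 k1 ▸ h2))).2 ⟨τ, h3, k2⟩
  have sub : B' ⊆ B := fun σ hσ => by
    obtain ⟨x, rfl⟩ := s'.sub hσ
    exact by_contra fun k => s'.mem_psi.1 (h (s.mem_psi.2 k)) hσ
  refine ⟨rfl, (Set.eq_of_subset_of_ncard_le sub ?_).symm⟩
  rcases s.2 with ⟨h1, -, h2⟩ | ⟨h1, δ, h2, rfl⟩ <;> rcases s'.2 with ⟨k1, -, k2⟩ | ⟨k1, δ', k2, rfl⟩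
  · omega
  · exact (k1 h1).elim
  · exact (h1 k1).elim
  · have := Set.ncard_diff_singleton_add_one h2
    have := Set.ncard_diff_singleton_add_one k2
    omega

theorem Sys.N (s : Sp L B) (h : g ∈ (rt L B).N ⊤) : g ∈ 𝐍 L ∧ g ∈ St H B := by
  have := S.uniq (s.cj g) s (by rw [← rt_cj]; exact (mem_St.1 h.2).le)
  exact ⟨cj_eq_self.1 this.1, this.2⟩

theorem Sys.KN (s : Sp L B) (h : g ∈ FX H B) : g ∈ 𝐍 L := (S.N s (st_psi (FX_st h))).1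

theorem Sys.KT (s : Sp L B) : FX H B ≤ 𝐂 (L ⊓ FX H (Dl X L \ B)) := fun k hk t ht => by
  have nk := S.KN s hk
  refine commutatorElement_eq_one_iff_mul_comm.1 ((S.cp s.1).faith (Hir.comm_mem_l ht.1 nk)
    (mem_FX.2 fun σ hσ => ?_))
  by_cases m : σ ∈ B
  · exact mem_FX.1 (Hir.comm_mem_r (norm_FX fun _ => St_mem (T_st ht s.sub)) hk) σ m
  · refine mem_FX.1 (Hir.comm_mem_l ht.2 (norm_FX fun p hp => ⟨St_mem (Dl_st nk) hp.1, fun c => hp.2 ?_⟩))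
      σ ⟨hσ, m⟩
    simpa using St_mem (inv_mem (FX_st hk)) c

theorem Sys.TF (s : Sp L B) (h : g ∈ L ⊓ FX H (Dl X L \ B)) : g ∈ FX H (rt L B).Ψ :=
  mem_FX.2 fun x hx => (S.cp s.1).ptw h.1 (mem_FX.1 h.2 _ ⟨fb_mem L x, s.mem_psi.1 hx⟩)

theorem Sys.T_eq (s : Sp L B) : Lay ⊤ ⊓ FX H (rt L B).Ψ = L ⊓ FX H (Dl X L \ B) := by
  refine le_antisymm (fun g hg => ?_) fun g hg => mi (s.1.le_Lay hg.1) (S.TF s hg)
  refine mi (decomp S.F fun L' k => ?_) (mem_FX.2 fun σ hσ => ?_)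
  · by_cases n : L = L'
    · subst n
      have : Lay ⊤ ≤ L ⊔ 𝐂 L := Lay_le_iff.2 fun K hK => (hK.eq_or_cent k).elim (fun e => e ▸ le_sup_left)
        fun c => c.trans le_sup_right
      obtain ⟨l, hl, c, hc, rfl⟩ := (mem_sup_norm' (cent_le_norm L)).1 (this hg.1)
      exact ⟨l, hl, hl, by rwa [inv_mul_cancel_left]⟩
    refine ⟨1, one_mem _, one_mem _, ?_⟩
    rw [inv_one, one_mul]
    refine (S.cp k).cent (k.Lay_norm hg.1) (mem_FX.2 fun τ hτ => ?_)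
    obtain ⟨σ, h1, h2⟩ := S.ex s
    obtain ⟨x, k1, k2⟩ := S.meet s.1 k n h1 hτ
    exact fix_Dl (k.Lay_norm hg.1) hτ k2 (mem_FX.1 hg.2 x (s.mem_psi.2 (Dl_eq h1 k1 ▸ h2)))
  · obtain ⟨x, rfl⟩ := hσ.1
    exact fix_Dl (s.1.Lay_norm hg.1) hσ.1 (fb_self L x) (mem_FX.1 hg.2 x (s.mem_psi.2 hσ.2))

/-- members of `K U` outside `K` act without fixed points on the support -/
theorem Sys.free (s : Sp L B) (h : g ∈ (rt L B).M) (hσ : σ ∈ B) (e : g • σ = σ) : g ∈ FX H B := by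
  obtain ⟨Q, b, r⟩ := S.rd s
  obtain ⟨k, hk, u, hu, rfl⟩ := (mem_sup_norm (norm_of_cent (cent_mono (S.KT s) le_rfl (Om_le 2 _)))).1 h
  have c := S.KT s hk u (Om_le _ _ hu)
  rw [← c, mul_smul, mem_FX.1 hk σ hσ] at e
  rw [r.Om] at hu
  rwa [r.semi (Om_le _ _ hu) hσ e, mul_one]

theorem Sys.r4 (s : Sp L B) (t2 : t * t = 1) (h : t ∈ St H B) (f : ∀ σ ∈ B, t • σ ≠ σ) :
    t ∈ (rt L B).M := by
  obtain ⟨Q, b, r⟩ := S.rd s
  have n := (S.N s (st_psi h)).1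
  obtain ⟨u, hu, k⟩ := r.r4 t2 n (Dl_st n) h f
  rw [← r.Om] at hu
  exact mem_of_eq (mul_mem (mem_sup_right hu) (mem_sup_left k)) (by group)

/-- existence of roots -/
theorem Sys.r9 (k : Comp L ⊤) (d2 : d * d = 1) (e2 : e * e = 1) (c : d * e = e * d) (nd : d ∈ 𝐍 L)
    (ne : e ∈ 𝐍 L) (hσ : σ ∈ Dl X L) (f1 : d • σ ≠ σ) (f2 : e • σ ≠ σ) (f3 : (d * e) • σ ≠ σ)
    (h : ¬ Alo L (Dl X L) → ∃ δ ∈ Dl X L, ∀ τ ∈ Dl X L, (d • τ = τ ↔ τ = δ) ∧ (e • τ = τ ↔ τ = δ)) :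
    ∃ B : Set (Set X), Sp L B ∧ d ∈ St H B ∧ e ∈ St H B ∧ d * e ∈ (rt L B).M ∧ d * e ∉ FX H B := by
  suffices ∃ B, Sp L B ∧ σ ∈ B ∧ (∀ τ ∈ B, d • τ ∈ B ∧ d • τ ≠ τ) ∧ ∀ τ ∈ B, e • τ ∈ B ∧ e • τ ≠ τ by
    obtain ⟨B, s, m, h1, h2⟩ := this
    have s1 := mem_St_of (Set.toFinite _) fun τ h => (h1 τ h).1
    have s2 := mem_St_of (Set.toFinite _) fun τ h => (h2 τ h).1
    exact ⟨B, s, s1, s2, mul_mem (S.r4 s d2 s1 fun τ h => (h1 τ h).2) (S.r4 s e2 s2 fun τ h => (h2 τ h).2),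
      fun k => f3 (mem_FX.1 k σ m)⟩
  by_cases al : Alo L (Dl X L)
  swap
  · obtain ⟨δ, hδ, u⟩ := h al
    refine ⟨_, ⟨k, .inr ⟨al, δ, hδ, rfl⟩⟩, ⟨hσ, fun e => f1 ((u σ hσ).1.2 e)⟩, fun τ h => ⟨⟨St_mem (Dl_st nd) h.1,
      fun k => h.2 (smul_left_cancel d (k.trans ((u δ hδ).1.2 rfl).symm))⟩, fun k => h.2 ((u τ h.1).1.1 k)⟩,
      fun τ h => ⟨⟨St_mem (Dl_st ne) h.1, fun k => h.2 (smul_left_cancel e (k.trans ((u δ hδ).2.2 rfl).symm))⟩,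
        fun k => h.2 ((u τ h.1).2.1 k)⟩⟩
  have dd : ∀ τ : Set X, d • d • τ = τ := fun τ => by rw [← mul_smul, d2, one_smul]
  have ee : ∀ τ : Set X, e • e • τ = τ := fun τ => by rw [← mul_smul, e2, one_smul]
  have de : ∀ τ : Set X, e • d • τ = d • e • τ := fun τ => by rw [← mul_smul, ← c, mul_smul]
  rw [mul_smul] at f3
  have g1 : d • σ ≠ e • σ := fun k => f3 (by rw [← k, dd])
  have g2 : d • e • σ ≠ e • σ := fun k => f1 (smul_left_cancel e (by rwa [de]))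
  have g3 : d • e • σ ≠ d • σ := fun k => f2 (smul_left_cancel d k)
  refine ⟨{σ, d • σ, e • σ, d • e • σ}, ⟨k, .inl ⟨al, ?_, Set.ncard_eq_four.2
    ⟨_, _, _, _, f1.symm, f2.symm, f3.symm, g1, g3.symm, g2.symm, rfl⟩⟩⟩, .inl rfl, ?_, ?_⟩
  · rintro _ (rfl | rfl | rfl | rfl)
    exacts [hσ, St_mem (Dl_st nd) hσ, St_mem (Dl_st ne) hσ, St_mem (Dl_st nd) (St_mem (Dl_st ne) hσ)]
  · rintro _ (rfl | rfl | rfl | rfl) <;> simp [dd, f1, f1.symm, g2, g2.symm]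
  · rintro _ (rfl | rfl | rfl | rfl) <;> simp [ee, de, f2, f2.symm, g3, g3.symm]

end CF.Holt.LS
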